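import Mathlib

/-!
# S4929, `Fi₂₃` (helper592): counting fixed points modulo `p`
-/

set_option autoImplicit false

namespace Cfsg.Agent.H592.EP

open Equiv

section

variable {G X : Type*} [Group G]

theorem card_mod [Finite G] [Finite X] {p : ℕ} [Fact p.Prime] (ρ : G →* Perm X) (θ : Perm X)
    (hθ : ∀ g, Commute θ (ρ g)) (P : Subgroup G) (hP : IsPGroup p P) (Rg : G → Prop)
    (hR : ∀ g h, Rg g → Rg (h * g * h⁻¹)) (Q : X → Prop) (hQ : ∀ g x, Q x → Q (ρ g x)) :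
    Nat.card {q : G × X // Rg q.1 ∧ Q q.2 ∧ θ (ρ q.1 q.2) = q.2} ≡
      Nat.card {q : G × X // (Rg q.1 ∧ Q q.2 ∧ θ (ρ q.1 q.2) = q.2) ∧ ∀ h ∈ P, h * q.1 = q.1 * h ∧ ρ h q.2 = q.2}
      [MOD p] := by
  have key : ∀ (h g : G) (x : X), θ (ρ g x) = x → θ (ρ (h * g * h⁻¹) (ρ h x)) = ρ h x := by
    intro h g x hx
    rw [← Perm.mul_apply (ρ (h * g * h⁻¹)), ← map_mul, inv_mul_cancel_right, map_mul, Perm.mul_apply,
      ← Perm.mul_apply θ, (hθ h).eq, Perm.mul_apply, hx]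
  let _ : MulAction P {q : G × X // Rg q.1 ∧ Q q.2 ∧ θ (ρ q.1 q.2) = q.2} :=
    { smul := fun h q => ⟨((h : G) * q.1.1 * (h : G)⁻¹, ρ h q.1.2), hR _ _ q.2.1, hQ _ _ q.2.2.1, key _ _ _ q.2.2.2⟩
      one_smul := fun q => Subtype.ext (Prod.ext
        (by show ((1 : P) : G) * q.1.1 * ((1 : P) : G)⁻¹ = q.1.1; simp)
        (by show ρ ((1 : P) : G) q.1.2 = q.1.2; simp))
      mul_smul := fun g h q => Subtype.ext (Prod.ext
        (by
          show ((g * h : P) : G) * q.1.1 * ((g * h : P) : G)⁻¹ = (g : G) * ((h : G) * q.1.1 * (h : G)⁻¹) * (g : G)⁻¹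
          push_cast
          group)
        (by
          show ρ ((g * h : P) : G) q.1.2 = ρ (g : G) (ρ (h : G) q.1.2)
          push_cast
          rw [map_mul]
          rfl)) }
  refine (hP.card_modEq_card_fixedPoints _).trans ?_
  have hsm : ∀ (h : P) (q : {q : G × X // Rg q.1 ∧ Q q.2 ∧ θ (ρ q.1 q.2) = q.2}),
      (h • q).1 = ((h : G) * q.1.1 * (h : G)⁻¹, ρ h q.1.2) := fun _ _ => rfl
  have h1 : Nat.card (MulAction.fixedPoints P {q : G × X // Rg q.1 ∧ Q q.2 ∧ θ (ρ q.1 q.2) = q.2}) =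
      Nat.card {q : G × X // (Rg q.1 ∧ Q q.2 ∧ θ (ρ q.1 q.2) = q.2) ∧ ∀ h ∈ P, h * q.1 = q.1 * h ∧ ρ h q.2 = q.2} := by
    refine Nat.card_congr ⟨fun q => ⟨q.1.1, q.1.2, fun h hh => ?_⟩, fun q => ⟨⟨q.1, q.2.1⟩, fun h => ?_⟩,
      fun _ => rfl, fun _ => rfl⟩
    · have h2 := congrArg Subtype.val (q.2 ⟨h, hh⟩)
      rw [hsm] at h2
      refine ⟨?_, congrArg Prod.snd h2⟩
      have h3 : h * q.1.1.1 * h⁻¹ = q.1.1.1 := congrArg Prod.fst h2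
      exact mul_inv_eq_iff_eq_mul.1 h3
    · obtain ⟨h2, h3⟩ := q.2.2 h.1 h.2
      refine Subtype.ext ?_
      rw [hsm]
      refine Prod.ext ?_ h3
      show (h : G) * q.1.1 * (h : G)⁻¹ = q.1.1
      rw [h2, mul_inv_cancel_right]
  rw [h1]

/-- the sum of the numbers of fixed points -/
theorem sum_fix [Fintype G] [Finite X] (σ : G → Perm X) (S : Finset G) (Q : X → Prop) :
    ∑ g ∈ S, Nat.card {x // Q x ∧ σ g x = x} = Nat.card {q : G × X // q.1 ∈ S ∧ Q q.2 ∧ σ q.1 q.2 = q.2} := by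
  classical
  rw [Finset.sum_subtype S (p := fun g => g ∈ S) (fun g => Iff.rfl), ← Nat.card_sigma]
  exact Nat.card_congr ⟨fun q => ⟨(q.1.1, q.2.1), q.1.2, q.2.2⟩, fun q => ⟨⟨q.1.1, q.2.1⟩, ⟨q.1.2, q.2.2⟩⟩,
    fun _ => rfl, fun _ => rfl⟩

end

end Cfsg.Agent.H592.EP
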