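import Cfsg.Agent.H30.FiE.Ctx

/-!
# S4929, `Fi₂₃` (helper592): kernel checks

* the number of the transpositions commuting with two given commuting transpositions is 3510;
* a word commuting with `l` and `k` which takes a transposition to its conjugate under `l`.
-/

set_option autoImplicit false
set_option maxRecDepth 100000

namespace Cfsg.Agent.H592.EP.Fi

open Cfsg Cfsg.Agent.Lib.PermNet Cfsg.Agent.Lib.PermNetPt Cfsg.Agent.Lib.PermNetOrbit
open Cfsg.Agent.Fischer.Fi24RepDef Cfsg.Agent.Fischer.Fi24Rep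
open Cfsg.Agent.Fischer.Fi24RepOrbData (UW)
open Cfsg.Agent.Fischer.Fi24RepOrb (UG)
open Cfsg.Agent.H30.FiE
open Cfsg.Agent.KFacts.FiTF.Pts
open Cfsg.Spor.Fi24 (Gen)

/-- a word taking the point 2 to 0 -/
def w2 : List Gen := [.k, .l, .a, .k, .b, .a, .c, .b]

theorem chk_w2 : chkPt (nw w2 false) 2 0 = true := by decide +kernel

theorem pc_lam : seqB (M w2) (fun V => seqB (Nat.land UW V) fun W =>
    and (Nat.beq (pc 19 W) 3510) (Nat.beq (Nat.shiftRight W (Nat.pow 2 19)) 0)) = true := by decide +kernel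

theorem lam_of {V W m : ℕ} (h : seqB V (fun V => seqB (Nat.land W V) fun W =>
    and (Nat.beq (pc 19 W) m) (Nat.beq (Nat.shiftRight W (Nat.pow 2 19)) 0)) = true) :
    {p : ℕ | (W &&& V).testBit p = true}.ncard = m := by
  rw [seqB_eq, seqB_eq, Bool.and_eq_true] at h
  exact ncard_testBit h.2 h.1

theorem ncard_lam : {p : ℕ | Com 0 p ∧ Com p 2}.ncard = 3510 := by
  rw [← lam_of pc_lam]
  congr 1
  ext p
  rw [Set.mem_ofPred_eq, Set.mem_ofPred_eq]
  have h1 : (UW &&& M w2).testBit p = true ↔ Com 0 p ∧ Com p 2 := by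
    rw [Nat.testBit_and, Bool.and_eq_true, UW_spec, M_spec chk_w2]
    exact and_congr_right fun _ => ⟨fun h => h.symm, fun h => h.symm⟩
  exact h1.symm

/-- the word in `b, …, j` -/
def ws : List Gen := [.e, .f, .c, .d, .e, .b, .c]

theorem chk_s0 : chkPt (nw ws false) 0 0 = true := by decide +kernel

theorem chk_sk : chkPt (nw ws false) 307872 307872 = true := by decide +kernel

theorem chk_s : chkPt (nw ws false) 32833 32865 = true := by decide +kernel

theorem chk_l : chkPt (nw [.l] false) 32833 32865 = true := by decide +kernel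

end Cfsg.Agent.H592.EP.Fi
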