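import Mathlib

/-!
# S4929, `Fi₂₃` (helper592): permutations of nine letters commuting with a 5-cycle and two transpositions
-/

set_option autoImplicit false

namespace Cfsg.Agent.H592.EP.Fi

open Equiv

/-- the 5-cycle -/
def c5 : Perm (Fin 9) := swap 0 1 * swap 1 2 * swap 2 3 * swap 3 4

theorem c5_pow : c5 ^ 5 = 1 := by decide +kernel

theorem c5_78 : c5 * swap 7 8 = swap 7 8 * c5 := by decide +kernel

theorem moved5 : ∀ x : Fin 9, c5 x ≠ x → ∃ m : Fin 5, (c5 ^ (m : ℕ)) 0 = x := by decide +kernel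

theorem c5_zero : c5 0 ≠ 0 := by decide +kernel

theorem c5_swap : ∀ i j : Fin 9, i ≠ j → c5 * swap i j = swap i j * c5 → 5 ≤ i ∧ 5 ≤ j := by decide +kernel

theorem c5_comm : ∀ i j : Fin 9, (i = 5 ∨ i = 6) → (j = 7 ∨ j = 8) → c5 * swap i j = swap i j * c5 := by decide +kernel

theorem swap_78 : ∀ i j : Fin 9, 5 ≤ i → 5 ≤ j → i ≠ j → swap 7 8 * swap i j ≠ swap i j * swap 7 8 →
    ((i = 5 ∨ i = 6) ∧ (j = 7 ∨ j = 8)) ∨ ((j = 5 ∨ j = 6) ∧ (i = 7 ∨ i = 8)) := by decide +kernel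

theorem swap_78' : ∀ i j : Fin 9, (i = 5 ∨ i = 6) → (j = 7 ∨ j = 8) → swap 7 8 * swap i j ≠ swap i j * swap 7 8 := by
  decide +kernel

theorem pts : ∀ x : Fin 9, (∃ n : Fin 5, (c5 ^ (n : ℕ)) 0 = x) ∨ x = 5 ∨ x = 6 ∨ x = 7 ∨ x = 8 := by decide +kernel

theorem sw {τ : Perm (Fin 9)} {a b : Fin 9} (hab : a ≠ b) (h : τ * swap a b = swap a b * τ) :
    (τ a = a ∧ τ b = b) ∨ (τ a = b ∧ τ b = a) := by
  have h1 : τ b = swap a b (τ a) := by
    have := congrArg (fun σ : Perm (Fin 9) => σ a) h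
    simp only [Perm.mul_apply, swap_apply_left] at this
    exact this
  by_cases h2 : τ a = a
  · left
    refine ⟨h2, ?_⟩
    rw [h1, h2, swap_apply_left]
  · by_cases h3 : τ a = b
    · right
      refine ⟨h3, ?_⟩
      rw [h1, h3, swap_apply_right]
    · rw [swap_apply_of_ne_of_ne h2 h3] at h1
      exact absurd (τ.injective h1).symm hab

theorem fix_last {τ : Perm (Fin 9)} (z : Fin 9) (h : ∀ x, x ≠ z → τ x = x) : τ = 1 := by
  ext x
  rw [Perm.one_apply]
  by_cases hx : x = z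
  · subst hx
    by_contra hne
    have h1 : τ x ≠ x := fun h2 => hne (congrArg Fin.val h2)
    exact h1 (τ.injective (h _ h1))
  · rw [h x hx]

theorem pow_five {σ : Perm (Fin 9)} (h1 : σ * c5 = c5 * σ) (h2 : σ * swap 7 8 = swap 7 8 * σ) {i j : Fin 9}
    (hi : i = 5 ∨ i = 6) (hj : j = 7 ∨ j = 8) (h3 : σ * swap i j = swap i j * σ) : σ ^ 5 = 1 := by
  have hc1 : Commute σ c5 := h1
  obtain ⟨m, hm⟩ := moved5 (σ 0) (by
    intro h
    have h4 : c5 (σ 0) = σ (c5 0) := by
      rw [← Perm.mul_apply, ← h1, Perm.mul_apply]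
    rw [h4] at h
    exact c5_zero (σ.injective h))
  obtain ⟨τ, hτ⟩ : ∃ τ, τ = (c5 ^ (m : ℕ))⁻¹ * σ := ⟨_, rfl⟩
  have hij : i ≠ j := by
    rcases hi with rfl | rfl <;> rcases hj with rfl | rfl <;> decide
  have t5 : Commute τ c5 := by
    rw [hτ]
    exact (((Commute.refl c5).pow_left _).inv_left).mul_left hc1
  have t78 : Commute τ (swap 7 8) := by
    rw [hτ]
    exact (((show Commute c5 (swap 7 8) from c5_78).pow_left _).inv_left).mul_left h2
  have tij : Commute τ (swap i j) := by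
    rw [hτ]
    exact (((show Commute c5 (swap i j) from c5_comm i j hi hj).pow_left _).inv_left).mul_left h3
  have t0 : τ 0 = 0 := by
    rw [hτ, Perm.mul_apply, Perm.inv_eq_iff_eq, hm]
  have tn : ∀ n : Fin 5, τ ((c5 ^ (n : ℕ)) 0) = (c5 ^ (n : ℕ)) 0 := by
    intro n
    rw [← Perm.mul_apply, (t5.pow_right _).eq, Perm.mul_apply, t0]
  have hfix : ∀ x, x ≠ (if i = 5 then 6 else 5) → τ x = x := by
    intro x hx
    rcases pts x with ⟨n, rfl⟩ | hx'
    · exact tn n
    · have e1 := sw (by decide) t78.eq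
      have e2 := sw hij tij.eq
      have e3 : τ 7 = 7 ∧ τ 8 = 8 ∧ τ i = i := by
        rcases e1 with ⟨e1, e1'⟩ | ⟨e1, e1'⟩
        · refine ⟨e1, e1', ?_⟩
          rcases e2 with ⟨e2, -⟩ | ⟨-, e2⟩
          · exact e2
          · exfalso
            rcases hi with rfl | rfl <;> rcases hj with rfl | rfl <;> simp_all
        · exfalso
          rcases e2 with ⟨-, e2⟩ | ⟨-, e2⟩ <;> rcases hi with rfl | rfl <;> rcases hj with rfl | rfl <;> simp_all
      obtain ⟨e3, e4, e5⟩ := e3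
      rcases hi with rfl | rfl
      · rw [if_pos rfl] at hx
        rcases hx' with rfl | rfl | rfl | rfl
        · exact e5
        · exact absurd rfl hx
        · exact e3
        · exact e4
      · rw [if_neg (by decide)] at hx
        rcases hx' with rfl | rfl | rfl | rfl
        · exact absurd rfl hx
        · exact e5
        · exact e3
        · exact e4
  have ht : τ = 1 := fix_last _ hfix
  rw [ht] at hτ
  have hσ : σ = c5 ^ (m : ℕ) := (inv_mul_eq_one.1 hτ.symm).symm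
  rw [hσ, ← pow_mul, mul_comm, pow_mul, c5_pow, one_pow]

end Cfsg.Agent.H592.EP.Fi
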