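import Cfsg.Agent.H592.EP.Norm
import Cfsg.Agent.H690.Spor.RankThree

/-!
# S4929, `Fi₂₃` (helper592): the two constituents of the signed permutation character
-/

set_option autoImplicit false

namespace Cfsg.Agent.H592.EP

open Cfsg Equiv Cfsg.Agent.Characters.Core Cfsg.Agent.H690.Spor.RankThree Cfsg.Agent.H690.Spor.RankThree.R3
open scoped ComplexConjugate

section Ker

variable {B X : Type*} [Group B] [Fintype X] [DecidableEq X]

theorem half_char (ρ : B →* Perm X) (l : Perm X) (hl : l * l = 1) (hc : ∀ g, Commute l (ρ g)) (E : X → X → ℂ)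
    (hEE : ∀ x y, ∑ z, E x z * E z y = E x y) (hE : ∀ g x y, E (ρ g x) (ρ g y) = E x y)
    (hEl : ∀ x y, E (l x) (l y) = E x y) :
    IsCharacter B fun g => (∑ x, E x (ρ g x) - ∑ x, E x (l (ρ g x))) / 2 := by
  have hll : ∀ x, l (l x) = x := fun x => by
    rw [← Perm.mul_apply, hl]; rfl
  have e1 : ∀ x y, ∑ z, E x (l z) * E z y = E x (l y) := by
    intro x y
    rw [← Equiv.sum_comp l (fun z => E x (l z) * E z y), ← hEE x (l y)]
    refine Finset.sum_congr rfl fun z _ => ?_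
    rw [hll, ← hEl (l z) y, hll]
  have h1 := Cfsg.Agent.H651.isCharacter_sum_perm ρ (fun x y => (E x y - E x (l y)) / 2) (fun x y => ?_)
    (fun g x y => ?_)
  · convert h1 using 2 with g
    rw [← Finset.sum_div, Finset.sum_sub_distrib]
  · have e2 : ∀ z, (E x z - E x (l z)) / 2 * ((E z y - E z (l y)) / 2) =
        4⁻¹ * (E x z * E z y) - 4⁻¹ * (E x z * E z (l y)) - 4⁻¹ * (E x (l z) * E z y) +
        4⁻¹ * (E x (l z) * E z (l y)) := fun z => by ring
    rw [Finset.sum_congr rfl fun z _ => e2 z, Finset.sum_add_distrib, Finset.sum_sub_distrib, Finset.sum_sub_distrib,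
      ← Finset.mul_sum, ← Finset.mul_sum, ← Finset.mul_sum, ← Finset.mul_sum, hEE, hEE, e1, e1, hll]
    ring
  · have e3 : l (ρ g y) = ρ g (l y) := by
      rw [← Perm.mul_apply, (hc g).eq, Perm.mul_apply]
    rw [e3, hE, hE]

theorem sum_ker {R : X → X → Prop} [DecidableRel R] {k : ℕ} {r s : ℂ} (hn : (Nat.card X : ℂ) ≠ 0) (σ : Perm X) :
    ∑ x, ker R k (Nat.card X) r s x (σ x) =
      (r - s)⁻¹ * (∑ x, adj R x (σ x) - s * (Nat.card {x // σ x = x} : ℂ) - (k - s)) := by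
  have h1 : ∑ x : X, dia x (σ x) = (Nat.card {x // σ x = x} : ℂ) := by
    unfold dia
    rw [Finset.sum_boole, Nat.card_eq_fintype_card, ← Fintype.card_subtype]
    congr 1
    exact Fintype.card_congr (Equiv.subtypeEquivRight fun x => eq_comm)
  unfold ker
  rw [← Finset.mul_sum, Finset.sum_sub_distrib, Finset.sum_sub_distrib, ← Finset.mul_sum, h1,
    Finset.sum_const, Finset.card_univ, ← Nat.card_eq_fintype_card, nsmul_eq_mul]
  congr 2
  field_simp

theorem split_chars [Finite B] {R : X → X → Prop} [DecidableRel R] {G' : Type*} [Group G'] [MulAction G' X] {k l' : ℕ}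
    (h : R3 G' X R k l') {a b : ℕ} (hab : ∀ x y, ∑ z, adj R x z * adj R z y =
      (k - b : ℂ) * dia x y + (a - b : ℂ) * adj R x y + b) {r s : ℂ} (hrs : r ≠ s)
    (h1 : r + s = a - b) (h2 : r * s = b - k) (hr0 : r ≠ 0) (hs0 : s ≠ 0)
    (ρ : B →* Perm X) (l : Perm X) (hl : l * l = 1) (hc : ∀ g, Commute l (ρ g))
    (hRρ : ∀ g x y, R (ρ g x) (ρ g y) ↔ R x y) (hRl : ∀ x y, R (l x) (l y) ↔ R x y) (hRx : ∀ x, ¬ R x (l x))
    {N : ℕ} (hN : Nat.card {x // l x = x} + N = Nat.card X) (hN0 : N ≠ 0)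
    {m : ℕ} (hm : m ≤ 2)
    (hsum : ∀ [Fintype B], ∑ g, ((Nat.card {x // ρ g x = x} : ℤ) - Nat.card {x // l (ρ g x) = x}) ^ 2 =
      4 * Nat.card B * m) :
    ∃ χ₁ χ₂ : IrrCharacter B, (χ₁ : B → ℂ) 1 = -s * N / (2 * (r - s)) ∧ (χ₂ : B → ℂ) 1 = r * N / (2 * (r - s)) ∧
      ∀ g, (χ₁ : B → ℂ) g + (χ₂ : B → ℂ) g =
        ((Nat.card {x // ρ g x = x} : ℂ) - Nat.card {x // l (ρ g x) = x}) / 2 := by
  have := Fintype.ofFinite B
  have hn := h.cardn
  have hd0 : r - s ≠ 0 := sub_ne_zero.2 hrs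
  have hnC : (Nat.card X : ℂ) ≠ 0 := by
    have : Nat.card X ≠ 0 := by omega
    exact_mod_cast this
  have hker : ∀ (u v : ℂ) (τ : Perm X), (∀ x y, R (τ x) (τ y) ↔ R x y) → ∀ x y,
      ker R k (Nat.card X) u v (τ x) (τ y) = ker R k (Nat.card X) u v x y := by
    intro u v τ hτ x y
    unfold ker adj dia
    simp only [hτ, τ.injective.eq_iff]
  have hchar : ∀ u v : ℂ, u ≠ v → u + v = a - b → u * v = b - k →
      IsCharacter B (fun g : B => (∑ x, ker R k (Nat.card X) u v x (ρ g x) -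
        ∑ x, ker R k (Nat.card X) u v x (l (ρ g x))) / 2) := by
    intro u v huv h3 h4
    exact half_char ρ l hl hc _ (h.ker_mul hab huv h3 h4) (fun g => hker u v (ρ g) (hRρ g)) (hker u v l hRl)
  have hc1 := hchar r s hrs h1 h2
  have hc2 := hchar s r hrs.symm (by rw [add_comm]; exact h1) (by rw [mul_comm]; exact h2)
  set θ₁ : B → ℂ := fun g : B => (∑ x, ker R k (Nat.card X) r s x (ρ g x) -
        ∑ x, ker R k (Nat.card X) r s x (l (ρ g x))) / 2 with hθ₁
  set θ₂ : B → ℂ := fun g : B => (∑ x, ker R k (Nat.card X) s r x (ρ g x) -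
        ∑ x, ker R k (Nat.card X) s r x (l (ρ g x))) / 2 with hθ₂
  have hval : ∀ u v : ℂ, ∀ g : B, (∑ x, ker R k (Nat.card X) u v x (ρ g x) -
        ∑ x, ker R k (Nat.card X) u v x (l (ρ g x))) / 2 =
      (u - v)⁻¹ * ((∑ x, adj R x (ρ g x) - ∑ x, adj R x (l (ρ g x))) -
        v * ((Nat.card {x // ρ g x = x} : ℂ) - Nat.card {x // l (ρ g x) = x})) / 2 := by
    intro u v g
    have e1 := sum_ker (R := R) (k := k) (r := u) (s := v) hnC (ρ g)
    have e2 := sum_ker (R := R) (k := k) (r := u) (s := v) hnC (l * ρ g)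
    simp only [Perm.mul_apply] at e2
    rw [e1, e2]
    ring
  have h3 : (s - r)⁻¹ = -(r - s)⁻¹ := by rw [← neg_sub, inv_neg]
  have h4 : (r - s)⁻¹ * (r - s) = 1 := inv_mul_cancel₀ hd0
  have hadd : ∀ g, θ₁ g + θ₂ g = ((Nat.card {x // ρ g x = x} : ℂ) - Nat.card {x // l (ρ g x) = x}) / 2 := by
    intro g
    rw [hθ₁, hθ₂]
    simp only [hval]
    rw [h3]
    linear_combination (((Nat.card {x // ρ g x = x} : ℂ) - Nat.card {x // l (ρ g x) = x}) / 2) * h4
  -- degrees
  have hfix : ((Nat.card {x // ρ 1 x = x} : ℂ) - Nat.card {x // l (ρ 1 x) = x}) = N := by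
    have e1 : Nat.card {x : X // ρ 1 x = x} = Nat.card X := by
      rw [map_one]
      exact Nat.card_congr (Equiv.subtypeUnivEquiv fun x => rfl)
    have e2 : Nat.card {x : X // l (ρ 1 x) = x} = Nat.card {x // l x = x} := by
      rw [map_one]
      rfl
    rw [e1, e2, ← hN]
    push_cast
    ring
  have hadj1 : ∑ x, adj R x (ρ 1 x) = 0 := by
    refine Finset.sum_eq_zero fun x _ => ?_
    unfold adj
    rw [map_one, Perm.one_apply, if_neg (h.irr x)]
  have hadj2 : ∑ x, adj R x (l (ρ 1 x)) = 0 := by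
    refine Finset.sum_eq_zero fun x _ => ?_
    unfold adj
    rw [map_one, Perm.one_apply, if_neg (hRx x)]
  have hdeg1 : θ₁ 1 = -s * N / (2 * (r - s)) := by
    rw [hθ₁]
    simp only [hval]
    rw [hadj1, hadj2, hfix]
    field_simp
    ring
  have hdeg2 : θ₂ 1 = r * N / (2 * (r - s)) := by
    rw [hθ₂]
    simp only [hval]
    rw [hadj1, hadj2, hfix, h3]
    field_simp
    ring
  have hNC : (N : ℂ) ≠ 0 := by exact_mod_cast hN0
  have hne1 : θ₁ 1 ≠ 0 := by
    rw [hdeg1]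
    exact div_ne_zero (mul_ne_zero (neg_ne_zero.2 hs0) hNC) (mul_ne_zero two_ne_zero hd0)
  have hne2 : θ₂ 1 ≠ 0 := by
    rw [hdeg2]
    exact div_ne_zero (mul_ne_zero hr0 hNC) (mul_ne_zero two_ne_zero hd0)
  -- the norm of the sum
  have hnorm : classInner (θ₁ + θ₂) (θ₁ + θ₂) = m := by
    have e1 : ∀ g, (θ₁ + θ₂) g * conj ((θ₁ + θ₂) g) =
        ((((Nat.card {x // ρ g x = x} : ℤ) - Nat.card {x // l (ρ g x) = x}) ^ 2 : ℤ) : ℂ) / 4 := by
      intro g
      rw [Pi.add_apply, hadd]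
      rw [map_div₀, map_sub, Complex.conj_natCast, Complex.conj_natCast, Complex.conj_ofNat]
      push_cast
      ring
    unfold classInner
    rw [Finset.sum_congr rfl fun g _ => e1 g, ← Finset.sum_div, ← Int.cast_sum, hsum]
    have e2 : (Nat.card B : ℂ) ≠ 0 := by exact_mod_cast Nat.card_pos.ne'
    push_cast
    field_simp
  rw [classInner_add_left, classInner_add_right, classInner_add_right] at hnorm
  obtain ⟨m11, hm11⟩ := classInner_isNat hc1 hc1
  obtain ⟨m12, hm12⟩ := classInner_isNat hc1 hc2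
  obtain ⟨m21, hm21⟩ := classInner_isNat hc2 hc1
  obtain ⟨m22, hm22⟩ := classInner_isNat hc2 hc2
  rw [hm11, hm12, hm21, hm22] at hnorm
  have hnormN : m11 + m12 + (m21 + m22) = m := by exact_mod_cast hnorm
  have h11 : m11 ≠ 0 := by
    rintro rfl
    have h5 := classInner_self_eq_zero (φ := θ₁) (by rw [hm11]; simp)
    rw [h5] at hne1
    exact hne1 rfl
  have h22 : m22 ≠ 0 := by
    rintro rfl
    have h5 := classInner_self_eq_zero (φ := θ₂) (by rw [hm22]; simp)
    rw [h5] at hne2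
    exact hne2 rfl
  have hm1 : m11 = 1 := by omega
  have hm2 : m22 = 1 := by omega
  have hi1 : IsIrrCharacter B θ₁ := isIrr_of_classInner_self hc1 (by rw [hm11, hm1]; simp)
  have hi2 : IsIrrCharacter B θ₂ := isIrr_of_classInner_self hc2 (by rw [hm22, hm2]; simp)
  exact ⟨⟨θ₁, hi1⟩, ⟨θ₂, hi2⟩, hdeg1, hdeg2, hadd⟩

end Ker

end Cfsg.Agent.H592.EP
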