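import Cfsg.Agent.H359.CT.McLTab

/-!
# S4929, `McL` (helper592): the strongly regular graph on 275 vertices
-/

set_option autoImplicit false
set_option maxRecDepth 100000

namespace Cfsg.Agent.H592.EP.McL

open Cfsg Equiv Cfsg.Agent.H359.CT Cfsg.Agent.H904.McLCent Cfsg.Agent.McLType.X275 Cfsg.Agent.McLType.Gens Cfsg.Agent.SporadicA.PermTab

/-- entries -/
def bm (i j : ℕ) : ℕ := bitM 275 adjM i j

/-- slices -/
def sl (P j : ℕ) : ℕ := Nat.land (Nat.shiftRight P (Nat.mul 2475 j)) (Nat.sub (Nat.pow 2 2475) 1)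

/-- the packed row -/
def prow (j : ℕ) : ℕ := sumN (fun k => Nat.mul (bm j k) (Nat.pow 512 k)) 275

/-- the entries of the square -/
def cf (i k : ℕ) : ℕ := cond (Nat.beq i k) 112 (cond (Nat.beq (bm i k) 1) 30 56)

/-- all packed rows -/
def ptab : ℕ := sumN (fun j => Nat.shiftLeft (prow j) (Nat.mul 2475 j)) 275

def chkT (P : ℕ) : Bool := allB (fun j => Nat.beq (sl P j) (prow j)) 275

def chkA (P : ℕ) : Bool := allB (fun i => Nat.beq (sumN (fun j => Nat.mul (bm i j) (sl P j)) 275)
  (sumN (fun k => Nat.mul (cf i k) (Nat.pow 512 k)) 275)) 275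

theorem chk_all : forceB ptab (fun P => band (chkT P) (chkA P)) = true := by decide +kernel

theorem sym_chk : allB (fun i => allB (fun j => Nat.beq (bm i j) (bm j i)) 275) 275 = true := by decide +kernel

theorem irr_chk : allB (fun i => Nat.beq (bm i i) 0) 275 = true := by decide +kernel

theorem digits_unique {b : ℕ} (n : ℕ) : ∀ {f g : ℕ → ℕ}, (∀ k < n, f k < b) → (∀ k < n, g k < b) →
    ∑ k ∈ Finset.range n, f k * b ^ k = ∑ k ∈ Finset.range n, g k * b ^ k → ∀ k < n, f k = g k := by
  induction n with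
  | zero => intro f g _ _ _ k hk; omega
  | succ n ih =>
    intro f g hf hg h k hk
    rw [Finset.sum_range_succ', Finset.sum_range_succ', pow_zero, mul_one, mul_one] at h
    have e : ∀ u : ℕ → ℕ, ∑ k ∈ Finset.range n, u (k + 1) * b ^ (k + 1) =
        b * ∑ k ∈ Finset.range n, u (k + 1) * b ^ k := by
      intro u
      rw [Finset.mul_sum]
      refine Finset.sum_congr rfl fun k _ => ?_
      rw [pow_succ]
      ring
    rw [e, e] at h
    have hb : 0 < b := lt_of_le_of_lt (Nat.zero_le _) (hf 0 (Nat.succ_pos n))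
    have h0 : f 0 = g 0 := by
      have h1 := congrArg (fun z => z % b) h
      simp only [Nat.mul_add_mod, Nat.mod_eq_of_lt (hf 0 (Nat.succ_pos n)), Nat.mod_eq_of_lt (hg 0 (Nat.succ_pos n))] at h1
      exact h1
    rw [h0] at h
    have h2 := Nat.eq_of_mul_eq_mul_left hb (Nat.add_right_cancel h)
    rcases k with _ | k
    · exact h0
    · exact ih (f := fun k => f (k + 1)) (g := fun k => g (k + 1)) (fun k hk => hf _ (by omega))
        (fun k hk => hg _ (by omega)) h2 k (by omega)

theorem bm_le (i j : ℕ) : bm i j ≤ 1 := by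
  unfold bm
  rw [bitM_eq]
  exact Bool.toNat_le _

theorem sq_entry {i k : ℕ} (hi : i < 275) (hk : k < 275) :
    ∑ j ∈ Finset.range 275, bm i j * bm j k = cf i k := by
  have h := chk_all
  rw [forceB_eq, band_eq_true] at h
  obtain ⟨h1, h2⟩ := h
  have h3 : ∀ j < 275, sl ptab j = ∑ k ∈ Finset.range 275, bm j k * 512 ^ k := fun j hj => by
    rw [Nat.eq_of_beq_eq_true ((allB_iff _ _).1 h1 j hj)]
    exact sumN_eq _ _
  have h4 : ∑ j ∈ Finset.range 275, bm i j * sl ptab j = ∑ k ∈ Finset.range 275, cf i k * 512 ^ k := by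
    have h5 := Nat.eq_of_beq_eq_true ((allB_iff _ _).1 h2 i hi)
    rw [sumN_eq, sumN_eq] at h5
    exact h5
  have h5 : ∑ j ∈ Finset.range 275, bm i j * sl ptab j =
      ∑ k ∈ Finset.range 275, (∑ j ∈ Finset.range 275, bm i j * bm j k) * 512 ^ k := by
    rw [Finset.sum_congr rfl (g := fun j => ∑ k ∈ Finset.range 275, bm i j * bm j k * 512 ^ k) fun j hj => by
      rw [h3 j (Finset.mem_range.1 hj), Finset.mul_sum]
      exact Finset.sum_congr rfl fun k _ => by ring, Finset.sum_comm]
    exact Finset.sum_congr rfl fun k _ => by rw [Finset.sum_mul]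
  refine digits_unique 275 (b := 512) (fun k _ => ?_) (fun k _ => ?_) (h5.symm.trans h4) k hk
  · have : ∑ j ∈ Finset.range 275, bm i j * bm j k ≤ ∑ j ∈ Finset.range 275, 1 :=
      Finset.sum_le_sum fun j _ => Nat.mul_le_mul (bm_le i j) (bm_le j k)
    rw [Finset.sum_const, Finset.card_range, smul_eq_mul] at this
    omega
  · unfold cf
    rcases Nat.beq i k with _ | _
    · rcases Nat.beq (bm i k) 1 with _ | _ <;> simp
    · simp

/-- adjacency -/
def adj (x y : Fin 275) : Prop := bm x y = 1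

instance : DecidableRel adj := fun x y => inferInstanceAs (Decidable (bm x y = 1))

theorem adj_symm (x y : Fin 275) (h : adj x y) : adj y x := by
  have h1 := Nat.eq_of_beq_eq_true ((allB_iff _ _).1 ((allB_iff _ _).1 sym_chk x x.2) y y.2)
  unfold adj at *
  rw [← h1, h]

theorem adj_irr (x : Fin 275) : ¬ adj x x := by
  have h1 := Nat.eq_of_beq_eq_true ((allB_iff _ _).1 irr_chk x x.2)
  unfold adj
  rw [h1]
  exact zero_ne_one

theorem common (x y : Fin 275) : (Finset.univ.filter fun z => adj x z ∧ adj z y).card = cf x y := by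
  rw [← sq_entry x.2 y.2, Finset.sum_range (fun j => bm x j * bm j y), Finset.card_filter]
  refine Finset.sum_congr rfl fun z _ => ?_
  have h1 := bm_le x z
  have h2 := bm_le z y
  unfold adj
  rcases Nat.le_one_iff_eq_zero_or_eq_one.1 h1 with h | h <;>
    rcases Nat.le_one_iff_eq_zero_or_eq_one.1 h2 with h' | h' <;> simp [h, h']

theorem hk (x : Fin 275) : (Finset.univ.filter fun y => adj x y).card = 112 := by
  have h := common x x
  have h1 : cf x x = 112 := by
    unfold cf
    rw [Nat.beq_refl]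
    rfl
  rw [h1] at h
  rw [← h]
  congr 1
  ext y
  simp only [Finset.mem_filter, Finset.mem_univ, true_and]
  exact ⟨fun h => ⟨h, adj_symm _ _ h⟩, fun h => h.1⟩

theorem hlam (x y : Fin 275) (h : adj x y) : (Finset.univ.filter fun z => adj x z ∧ adj z y).card = 30 := by
  rw [common]
  have h1 : (x : ℕ) ≠ y := fun e => adj_irr x (by rwa [← Fin.ext e] at h)
  have h2 : Nat.beq (x : ℕ) y = false := by
    rw [← Bool.not_eq_true, Nat.beq_eq]
    exact h1
  have h3 : Nat.beq (bm x y) 1 = true := by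
    rw [Nat.beq_eq]
    exact h
  unfold cf
  rw [h2, h3]
  rfl

theorem hmu (x y : Fin 275) (hne : x ≠ y) (h : ¬ adj x y) :
    (Finset.univ.filter fun z => adj x z ∧ adj z y).card = 56 := by
  rw [common]
  have h2 : Nat.beq (x : ℕ) y = false := by
    rw [← Bool.not_eq_true, Nat.beq_eq]
    exact fun e => hne (Fin.ext e)
  have h3 : Nat.beq (bm x y) 1 = false := by
    rw [← Bool.not_eq_true, Nat.beq_eq]
    exact h
  unfold cf
  rw [h2, h3]
  rfl

theorem hinv (g : ↥K0) (x y : Fin 275) : adj (g • x) (g • y) ↔ adj x y := by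
  have h := K0_le g.2 x y
  unfold adj bm
  show bitM 275 adjM ((g : Perm (Fin 275)) x : Fin 275) ((g : Perm (Fin 275)) y : Fin 275) = 1 ↔ _
  rw [h]

end Cfsg.Agent.H592.EP.McL
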