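import Cfsg.Agent.H592.EP.Norm

/-!
# S4929, `Fi₂₃` (helper592): restriction to the points moved by the involution
-/

set_option autoImplicit false

namespace Cfsg.Agent.H592.EP

open Equiv

section

variable {G X : Type*} [Group G]

theorem moved {l σ : Perm X} (h : Commute l σ) {x : X} : l (σ x) ≠ σ x ↔ l x ≠ x := by
  rw [← Perm.mul_apply, h.eq, Perm.mul_apply]
  exact not_congr σ.injective.eq_iff

/-- the restriction to the moved points -/
def restr (l σ : Perm X) (h : Commute l σ) : Perm {x // l x ≠ x} where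
  toFun y := ⟨σ y.1, (moved h).2 y.2⟩
  invFun y := ⟨σ⁻¹ y.1, (moved h.inv_right).2 y.2⟩
  left_inv y := Subtype.ext (σ.symm_apply_apply _)
  right_inv y := Subtype.ext (σ.apply_symm_apply _)

theorem card_split [Finite X] (P Q : X → Prop) :
    Nat.card {x // P x} = Nat.card {x // P x ∧ Q x} + Nat.card {x // P x ∧ ¬ Q x} := by
  classical
  have := Fintype.ofFinite X
  rw [Nat.card_eq_fintype_card, Nat.card_eq_fintype_card, Nat.card_eq_fintype_card, Fintype.card_subtype,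
    Fintype.card_subtype, Fintype.card_subtype, ← Finset.card_filter_add_card_filter_not Q (s := Finset.univ.filter P),
    Finset.filter_filter, Finset.filter_filter]

theorem fix_restr [Finite X] {l σ : Perm X} (h : Commute l σ) :
    (Nat.card {x // σ x = x} : ℤ) - Nat.card {x // l (σ x) = x} =
      (Nat.card {y : {x // l x ≠ x} // restr l σ h y = y} : ℤ) -
        Nat.card {y : {x // l x ≠ x} // restr l l (Commute.refl l) (restr l σ h y) = y} := by
  rw [card_split (fun x => σ x = x) (fun x => l x = x), card_split (fun x => l (σ x) = x) (fun x => l x = x)]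
  have e1 : Nat.card {x // σ x = x ∧ l x = x} = Nat.card {x // l (σ x) = x ∧ l x = x} := by
    refine Nat.card_congr (Equiv.subtypeEquivRight fun x => ?_)
    constructor
    · rintro ⟨h1, h2⟩
      exact ⟨by rw [h1, h2], h2⟩
    · rintro ⟨h1, h2⟩
      refine ⟨?_, h2⟩
      rw [← Perm.mul_apply, h.eq, Perm.mul_apply, h2] at h1
      exact h1
  have e2 : Nat.card {x // σ x = x ∧ ¬ l x = x} = Nat.card {y : {x // l x ≠ x} // restr l σ h y = y} :=
    Nat.card_congr ⟨fun x => ⟨⟨x.1, x.2.2⟩, Subtype.ext x.2.1⟩, fun y => ⟨y.1.1, congrArg Subtype.val y.2, y.1.2⟩,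
      fun _ => rfl, fun _ => rfl⟩
  have e3 : Nat.card {x // l (σ x) = x ∧ ¬ l x = x} =
      Nat.card {y : {x // l x ≠ x} // restr l l (Commute.refl l) (restr l σ h y) = y} :=
    Nat.card_congr ⟨fun x => ⟨⟨x.1, x.2.2⟩, Subtype.ext x.2.1⟩, fun y => ⟨y.1.1, congrArg Subtype.val y.2, y.1.2⟩,
      fun _ => rfl, fun _ => rfl⟩
  rw [e1, e2, e3]
  push_cast
  ring

theorem norm_sum_sub [Fintype G] [Finite X] (ρ : G →* Perm X) (l : Perm X) (hl : l * l = 1) (hc : ∀ g, Commute l (ρ g))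
    {n : ℕ} (y0 : X) (hy0 : l y0 ≠ y0) (x : Fin n → X) (hx : ∀ i, l (x i) ≠ x i)
    (hcov : ∀ y y', l y ≠ y → l y' ≠ y' → ∃ i, ∃ a b : ℤˣ, ∃ g, mu l hl a (ρ g y0) = y ∧ mu l hl b (ρ g (x i)) = y')
    (hns : ∃ y y', l y ≠ y ∧ l y' ≠ y' ∧ ∃ g, (ρ g y = y ∧ l (ρ g y') = y') ∨ (l (ρ g y) = y ∧ ρ g y' = y')) :
    ∃ m : ℕ, m + 1 ≤ n ∧ ∑ g, ((Nat.card {x // ρ g x = x} : ℤ) - Nat.card {x // l (ρ g x) = x}) ^ 2 =
      4 * Nat.card G * m := by
  let ρY : G →* Perm {x // l x ≠ x} :=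
    { toFun := fun g => restr l (ρ g) (hc g)
      map_one' := by
        ext y
        show ρ 1 y.1 = y.1
        rw [map_one]; rfl
      map_mul' := fun g h => by
        ext y
        show ρ (g * h) y.1 = ρ g (ρ h y.1)
        rw [map_mul]; rfl }
  let lY : Perm {x // l x ≠ x} := restr l l (Commute.refl l)
  have hlY : lY * lY = 1 := by
    ext y
    show l (l y.1) = y.1
    rw [← Perm.mul_apply, hl]; rfl
  have hcY : ∀ g, Commute lY (ρY g) := by
    intro g
    show lY * ρY g = ρY g * lY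
    ext y
    show l (ρ g y.1) = ρ g (l y.1)
    rw [← Perm.mul_apply, (hc g).eq, Perm.mul_apply]
  have hmu : ∀ (a : ℤˣ) (y : {x // l x ≠ x}), (mu lY hlY a y).1 = mu l hl a y.1 := by
    intro a y
    rcases Int.units_eq_one_or a with rfl | rfl
    · rw [mu_one, mu_one]; rfl
    · rw [mu_neg, mu_neg]; rfl
  obtain ⟨m, hm, hs⟩ := norm_sum ρY lY hlY hcY (n := n) ⟨y0, hy0⟩ (fun i => ⟨x i, hx i⟩)
    (by
      rintro ⟨y, hy⟩ ⟨y', hy'⟩
      obtain ⟨i, a, b, g, h1, h2⟩ := hcov y y' hy hy'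
      refine ⟨i, a, b, g, Subtype.ext ?_, Subtype.ext ?_⟩
      · rw [hmu]; exact h1
      · rw [hmu]; exact h2)
    (by
      obtain ⟨y, y', hy, hy', g, h⟩ := hns
      refine ⟨⟨y, hy⟩, ⟨y', hy'⟩, g, ?_⟩
      rcases h with ⟨h1, h2⟩ | ⟨h1, h2⟩
      · exact Or.inl ⟨Subtype.ext h1, Subtype.ext h2⟩
      · exact Or.inr ⟨Subtype.ext h1, Subtype.ext h2⟩)
  refine ⟨m, hm, ?_⟩
  rw [← hs]
  refine Finset.sum_congr rfl fun g _ => ?_
  rw [fix_restr (hc g)]
  rfl

end

end Cfsg.Agent.H592.EP
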